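import Mathlib
import Cfsg.Agent.Lib.Helper69.APQ.Defs

/-!
# Project APQ (S4150): packages [CT], [NTSMALL], [FIN]
-/

set_option autoImplicit false

namespace Cfsg.Agent.Lib.Helper45.APQ

open Cfsg.Agent.Lib.Helper69.APQ Equiv

universe u

theorem pkgCT : PkgCT := by
  intro m x p hp hx hm
  have hp' : (orderOf x).Prime := by rw [hx]; exact hp
  obtain ⟨n, hn⟩ := Equiv.Perm.cycleType_prime_order hp'
  rw [hx] at hn
  have hsum : x.cycleType.sum ≤ m := by
    have := x.sum_cycleType_le
    rwa [Fintype.card_fin] at this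
  rw [hn, Multiset.sum_replicate, smul_eq_mul] at hsum
  have hppos : 0 < p := hp.pos
  have hn1 : n ≤ 1 := by
    by_contra hcon
    push Not at hcon
    have h3 : 3 * p ≤ (n + 1) * p := Nat.mul_le_mul_right p (by omega)
    omega
  rcases Nat.lt_or_ge n 1 with h0 | h1
  · left
    have hn0 : n = 0 := by omega
    rw [hn, hn0]
    rfl
  · right
    have hn1' : n = 1 := by omega
    rw [hn1'] at hsum hn
    refine ⟨by omega, ?_⟩
    rw [hn]
    rfl

theorem pkgNTSmall : PkgNTSmall := by
  intro m h17 h4100
  by_cases h1 : m ≤ 25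
  · exact ⟨13, 17, by norm_num, by norm_num, by omega, by omega, by omega⟩
  by_cases h2 : m ≤ 37
  · exact ⟨19, 23, by norm_num, by norm_num, by omega, by omega, by omega⟩
  by_cases h3 : m ≤ 61
  · exact ⟨31, 37, by norm_num, by norm_num, by omega, by omega, by omega⟩
  by_cases h4 : m ≤ 105
  · exact ⟨53, 59, by norm_num, by norm_num, by omega, by omega, by omega⟩
  by_cases h5 : m ≤ 193
  · exact ⟨97, 101, by norm_num, by norm_num, by omega, by omega, by omega⟩
  by_cases h6 : m ≤ 361
  · exact ⟨181, 191, by norm_num, by norm_num, by omega, by omega, by omega⟩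
  by_cases h7 : m ≤ 673
  · exact ⟨337, 347, by norm_num, by norm_num, by omega, by omega, by omega⟩
  by_cases h8 : m ≤ 1321
  · exact ⟨661, 673, by norm_num, by norm_num, by omega, by omega, by omega⟩
  by_cases h9 : m ≤ 2613
  · exact ⟨1307, 1319, by norm_num, by norm_num, by omega, by omega, by omega⟩
  · exact ⟨2593, 2609, by norm_num, by norm_num, by omega, by omega, by omega⟩

theorem pkgFin : PkgFin.{u} := by
  intro β _ _ x y hx hy hgen
  have heq : Subgroup.closure ({x, y} : Set (Perm β)) = alternatingGroup β := by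
    apply le_antisymm
    · rw [Subgroup.closure_le]
      intro z hz
      rcases hz with rfl | rfl
      · exact hx
      · exact hy
    · exact hgen
  exact ⟨(MulEquiv.subgroupCongr heq).trans (Equiv.altCongrHom (Fintype.equivFin β))⟩

end Cfsg.Agent.Lib.Helper45.APQ
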